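/-
The qrc-lemma: analysis of the block structure for odd primes.  The centralizer in `⨆ [W, E i]` of the Sylow
subgroup is permuted transitively by a single element of `N(S) ⊓ ⨆ E i`.
-/
import Cfsg.Agent.Lib.BHS.BPlus
import Cfsg.Agent.Lib.BHS.SL2Transfer
import Cfsg.Agent.Lib.BHS.OffCount
import Cfsg.Agent.Lib.QuadAct.ZJ

set_option autoImplicit false
set_option linter.unusedSectionVars false
set_option linter.unusedVariables false
set_option linter.unusedSimpArgs false

namespace Cfsg.Agent.Lib.Qrc.Mod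

open Cfsg Cfsg.Agent.Lib.BHS.OffBasic Cfsg.Agent.Lib.BHS.OffStruct Cfsg.Agent.Lib.BHS.Points
  Cfsg.Agent.Lib.BHS.Blocks Cfsg.Agent.Lib.BHS.QBig Cfsg.Agent.Lib.BHS.SL2Core
  Cfsg.Agent.Lib.BHS.SL2Transfer

variable {P : Type*} [Group P] {W : Type*} [AddCommGroup W] [DistribMulAction P W] {p : ℕ}

theorem no_two_torsion [hp : Fact p.Prime] (hodd : p ≠ 2) (hW : ∀ w : W, p • w = 0) {w : W} (h : 2 • w = 0) :
    w = 0 := by
  obtain ⟨m, hm⟩ := hp.out.odd_of_ne_two hodd
  have h1 := hW w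
  rw [hm, add_smul, mul_comm, mul_smul, h] at h1
  simpa using h1

/-- The central element `-1` of `SL₂`. -/
def mI (F : Type*) [Field F] : Matrix.SpecialLinearGroup (Fin 2) F :=
  ⟨-1, by simp [Matrix.det_fin_two]⟩

theorem mI_mulVec {F : Type*} [Field F] (v : Fin 2 → F) : (mI F).1.mulVec v = -v := by
  show (-1 : Matrix (Fin 2) (Fin 2) F).mulVec v = -v
  rw [Matrix.neg_mulVec, Matrix.one_mulVec]

theorem mI_comm {F : Type*} [Field F] (g : Matrix.SpecialLinearGroup (Fin 2) F) : mI F * g = g * mI F := by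
  apply Subtype.ext
  show (-1 : Matrix (Fin 2) (Fin 2) F) * g.1 = g.1 * (-1 : Matrix (Fin 2) (Fin 2) F)
  simp

theorem mI_sq {F : Type*} [Field F] : mI F * mI F = 1 := by
  apply Subtype.ext
  show (-1 : Matrix (Fin 2) (Fin 2) F) * (-1 : Matrix (Fin 2) (Fin 2) F) = 1
  simp

/-- Fixed points and commutators of a block are independent. -/
theorem fix_inf_com [hp : Fact p.Prime] (hodd : p ≠ 2) (hW : ∀ w : W, p • w = 0) {n : ℕ} {E : Subgroup P}
    (hk : KindSL2 p n E W) {w : W} (hw : w ∈ comS W E) (hf : w ∈ fixS W E) : w = 0 := by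
  obtain ⟨F, fF, fFt, hcF, ρ, Θ, hsurj, hker, hequi⟩ := hk
  let z : ↥E := ρ.symm (mI F)
  have hρz : ρ z = mI F := ρ.apply_symm_apply _
  have hzz : ((z : P)) * (z : P) = 1 := by
    have : z * z = 1 := by
      apply ρ.injective
      rw [map_mul, hρz, mI_sq, map_one]
    exact congrArg Subtype.val this
  have hzc : ∀ g : ↥E, (z : P) * g = g * z := by
    intro g
    have : z * g = g * z := by
      apply ρ.injective
      rw [map_mul, map_mul, hρz, mI_comm]
    exact congrArg Subtype.val this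
  have hΘz : ∀ v : W, Θ ((z : P) • v) = - Θ v := by
    intro v
    rw [hequi z v, hρz, mI_mulVec]
  have hzz' : ∀ v : W, (z : P) • (z : P) • v = v := by
    intro v
    rw [← mul_smul, hzz, one_smul]
  have hfix : ∀ v : W, v + (z : P) • v ∈ fixS W E := by
    intro v
    rw [← hker, map_add, hΘz]
    simp
  have key : ∀ x ∈ comS W E, (z : P) • x = - x := by
    intro x hx
    induction hx using AddSubgroup.closure_induction with
    | mem x hx =>
      obtain ⟨g, hg, v, rfl⟩ := hx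
      set u := v - (z : P) • v with hu
      have hzu : (z : P) • u = - u := by
        rw [hu, smul_sub, hzz']
        abel
      have h2 : (2 : ℕ) • (g • v - v) = g • u - u := by
        have h3 := hfix v g hg
        have h4 : g • u = g • v - g • (z : P) • v := by rw [hu, smul_sub]
        rw [smul_add] at h3
        rw [h4, hu]
        have h5 : g • (z : P) • v = v + (z : P) • v - g • v := by
          rw [← h3]
          abel
        rw [h5]
        rw [two_smul]
        abel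
      have h6 : (z : P) • (g • u - u) = - (g • u - u) := by
        rw [smul_sub, ← mul_smul, hzc ⟨g, hg⟩, mul_smul, hzu, smul_neg]
        abel
      apply eq_neg_of_add_eq_zero_left
      apply no_two_torsion hodd hW
      rw [smul_add, ← smul_comm, h2, h6]
      abel
    | zero => simp
    | add a b _ _ ha hb => rw [smul_add, ha, hb, neg_add]
    | neg a _ ha => rw [smul_neg, ha]
  have h1 := key w hw
  have h2 := hf z z.2
  apply no_two_torsion hodd hW
  rw [two_smul]
  nth_rw 1 [← h2]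
  rw [h1]
  abel

section blocks

variable [hp : Fact p.Prime] [Finite P] [Finite W] {ι : Type*} {S : Subgroup P} {E : ι → Subgroup P}

theorem kind_sl2 (hodd : p ≠ 2) (hB : Blocks p S W E) (i : ι) : ∃ n, 1 ≤ n ∧ KindSL2 p n (E i) W := by
  obtain ⟨n, hn, hk | ⟨h2, -⟩⟩ := hB.kind i
  · exact ⟨n, hn, hk⟩
  · exact absurd h2 hodd

theorem fix_inf_sup [Finite ι] (hodd : p ≠ 2) (hW : ∀ w : W, p • w = 0) (hB : Blocks p S W E) {w : W}
    (hf : w ∈ fixS W (⨆ i, E i)) (hw : w ∈ ⨆ i, comS W (E i)) : w = 0 := by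
  classical
  haveI := Fintype.ofFinite ι
  have key : ∀ Q : Finset ι, w ∈ ⨆ (i : ι) (_ : i ∉ Q), comS W (E i) := by
    intro Q
    induction Q using Finset.induction_on with
    | empty => simpa using hw
    | insert j Q hj ih =>
      have hle : (⨆ (i : ι) (_ : i ∉ Q), comS W (E i)) ≤
          comS W (E j) ⊔ ⨆ (i : ι) (_ : i ∉ insert j Q), comS W (E i) := by
        refine iSup₂_le fun i hi => ?_
        by_cases hij : i = j
        · subst hij
          exact le_sup_left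
        · refine le_sup_of_le_right (le_iSup₂_of_le i ?_ le_rfl)
          simp [hij, hi]
      obtain ⟨a, ha, b, hb, hab⟩ := AddSubgroup.mem_sup.1 (hle ih)
      have hb' : b ∈ fixS W (E j) := by
        have hle2 : (⨆ (i : ι) (_ : i ∉ insert j Q), comS W (E i)) ≤ fixS W (E j) := by
          refine iSup₂_le fun i hi => ?_
          have hij : i ≠ j := fun he => hi (by simp [he])
          exact comS_le (hB.quad j i (Ne.symm hij))
        exact hle2 hb
      have hwj : w ∈ fixS W (E j) := (mem_fixS_iSup.1 hf) j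
      have ha' : a ∈ fixS W (E j) := by
        have : a = w - b := by rw [← hab]; abel
        rw [this]
        exact AddSubgroup.sub_mem _ hwj hb'
      obtain ⟨n, -, hk⟩ := kind_sl2 hodd hB j
      have ha0 := fix_inf_com hodd hW hk ha ha'
      rw [← hab, ha0, zero_add]
      exact hb
  have h := key Finset.univ
  simpa using h

theorem smul_mem_comS_of_cj {X Y : Subgroup P} {t : P} (h : cj t X = Y) {w : W} (hw : w ∈ comS W X) :
    t • w ∈ comS W Y := by
  subst h
  induction hw using AddSubgroup.closure_induction with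
  | mem x hx =>
    obtain ⟨g, hg, v, rfl⟩ := hx
    have h1 : t • (g • v - v) = (t * g * t⁻¹) • (t • v) - t • v := by
      rw [smul_sub, mul_smul, mul_smul, inv_smul_smul]
    rw [h1]
    exact smul_sub_mem_comS (conj_mem_cj hg) _
  | zero => rw [smul_zero]; exact AddSubgroup.zero_mem _
  | add a b _ _ ha hb => rw [smul_add]; exact AddSubgroup.add_mem _ ha hb
  | neg a _ ha => rw [smul_neg]; exact AddSubgroup.neg_mem _ ha

/-- `S` preserves the commutators. -/
theorem smul_mem_sup_com (hperm : ∀ t ∈ S, ∀ i, ∃ j, cj t (E i) = E j) {t : P} (ht : t ∈ S) {w : W}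
    (hw : w ∈ ⨆ i, comS W (E i)) : t • w ∈ ⨆ i, comS W (E i) := by
  induction hw using AddSubgroup.iSup_induction' with
  | hp i x hx =>
    obtain ⟨j, hj⟩ := hperm t ht i
    exact AddSubgroup.mem_iSup_of_mem j (smul_mem_comS_of_cj hj hx)
  | h1 => rw [smul_zero]; exact AddSubgroup.zero_mem _
  | hadd x y _ _ hx hy => rw [smul_add]; exact AddSubgroup.add_mem _ hx hy

/-- `S` preserves the fixed points of the blocks. -/
theorem smul_mem_fix_sup (hperm : ∀ t ∈ S, ∀ i, ∃ j, cj t (E i) = E j) {t : P} (ht : t ∈ S) {w : W}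
    (hw : w ∈ fixS W (⨆ i, E i)) : t • w ∈ fixS W (⨆ i, E i) := by
  refine mem_fixS_iSup.2 fun i => ?_
  obtain ⟨j, hj⟩ := hperm t⁻¹ (S.inv_mem ht) i
  have h1 : cj t (E j) = E i := by
    rw [← hj, cj_cj_inv]
  exact (Cfsg.Agent.Lib.BHS.OffCount.fix_trans h1).1 (mem_fixS_iSup.1 hw j)

/-- The block product is contained in the stabilizer of the commutator module. -/
theorem iSup_le_modFix : (⨆ i, E i) ≤ modFix (P := P) (⨆ i, comS W (E i)) := by
  refine iSup_le fun i g hg v => ?_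
  exact AddSubgroup.mem_iSup_of_mem i (smul_sub_mem_comS hg v)

/-- The decomposition of a fixed vector. -/
theorem exists_decomp [Finite ι] (hodd : p ≠ 2) (hW : ∀ w : W, p • w = 0) (hB : Blocks p S W E)
    (hperm : ∀ t ∈ S, ∀ i, ∃ j, cj t (E i) = E j) {w : W} (hw : w ∈ fixS W S) :
    ∃ c d, c ∈ fixS W (⨆ i, E i) ∧ c ∈ fixS W S ∧ d ∈ ⨆ i, comS W (E i) ∧ d ∈ fixS W S ∧ w = c + d := by
  have h1 : w ∈ fixS W (⨆ i, E i) ⊔ ⨆ i, comS W (E i) := by
    rw [hB.sup_split]
    trivial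
  obtain ⟨c, hc, d, hd, rfl⟩ := AddSubgroup.mem_sup.1 h1
  have key : ∀ t ∈ S, t • c = c := by
    intro t ht
    have h2 := hw t ht
    rw [smul_add] at h2
    have h3 : t • c - c = d - t • d := by
      rw [sub_eq_sub_iff_add_eq_add, h2]
      abel
    have h4 : t • c - c ∈ fixS W (⨆ i, E i) := AddSubgroup.sub_mem _ (smul_mem_fix_sup hperm ht hc) hc
    have h5 : t • c - c ∈ ⨆ i, comS W (E i) := by
      rw [h3]
      exact AddSubgroup.sub_mem _ hd (smul_mem_sup_com hperm ht hd)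
    exact sub_eq_zero.1 (fix_inf_sup hodd hW hB h4 h5)
  have hcS : c ∈ fixS W S := key
  refine ⟨c, d, hc, hcS, hd, ?_, rfl⟩
  intro t ht
  have h2 := hw t ht
  rw [smul_add, key t ht] at h2
  exact add_left_cancel h2

end blocks

section sl2

variable {F : Type*} [Field F]

theorem exists_sl2_move [Finite F] {v v' : Fin 2 → F} (hv : v ≠ 0) (hv' : v' ≠ 0) :
    ∃ δ : Matrix.SpecialLinearGroup (Fin 2) F, δ.1.mulVec v = v' := by
  obtain ⟨δ₁, h10, h11⟩ := exists_first_col v hv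
  obtain ⟨δ₂, h20, h21⟩ := exists_first_col v' hv'
  have e1 : δ₁.1.mulVec ![1, 0] = v := by
    ext i
    fin_cases i
    · simpa [Matrix.mulVec, dotProduct, Fin.sum_univ_two] using h10
    · simpa [Matrix.mulVec, dotProduct, Fin.sum_univ_two] using h11
  have e2 : δ₂.1.mulVec ![1, 0] = v' := by
    ext i
    fin_cases i
    · simpa [Matrix.mulVec, dotProduct, Fin.sum_univ_two] using h20
    · simpa [Matrix.mulVec, dotProduct, Fin.sum_univ_two] using h21
  refine ⟨δ₂ * δ₁⁻¹, ?_⟩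
  rw [← e1, Matrix.SpecialLinearGroup.coe_mul, ← Matrix.mulVec_mulVec, Matrix.mulVec_mulVec (M := (δ₁⁻¹).1),
    ← Matrix.SpecialLinearGroup.coe_mul, inv_mul_cancel, Matrix.SpecialLinearGroup.coe_one, Matrix.one_mulVec, e2]

/-- A nontrivial matrix fixes only a line. -/
theorem line_of_fixed {a : Matrix.SpecialLinearGroup (Fin 2) F} (ha : a ≠ 1) {v₀ v : Fin 2 → F} (hv₀ : v₀ ≠ 0)
    (h0 : a.1.mulVec v₀ = v₀) (h1 : a.1.mulVec v = v) : ∃ c : F, v = c • v₀ := by
  have e00 := congrFun h0 0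
  have e01 := congrFun h0 1
  have e10 := congrFun h1 0
  have e11 := congrFun h1 1
  simp only [Matrix.mulVec, dotProduct, Fin.sum_univ_two] at e00 e01 e10 e11
  by_cases hD : v₀ 0 * v 1 - v 0 * v₀ 1 = 0
  · by_cases hx : v₀ 0 = 0
    · have hy : v₀ 1 ≠ 0 := by
        intro hy
        apply hv₀
        ext i
        fin_cases i
        · exact hx
        · exact hy
      refine ⟨v 1 / v₀ 1, ?_⟩
      ext i
      fin_cases i
      · have : v 0 = 0 := by
          rw [hx, zero_mul, zero_sub, neg_eq_zero] at hD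
          exact (mul_eq_zero.1 hD).resolve_right hy
        simp [hx, this]
      · simp [hy]
    · refine ⟨v 0 / v₀ 0, ?_⟩
      ext i
      fin_cases i
      · simp [hx]
      · have : v 1 = v 0 * v₀ 1 / v₀ 0 := by
          field_simp
          linear_combination hD
        simp [this]
        ring
  · exfalso
    apply ha
    apply Subtype.ext
    have h00 : a.1 0 0 = 1 := by
      apply mul_right_cancel₀ hD
      linear_combination (v 1) * e00 - (v₀ 1) * e10
    have h01 : a.1 0 1 = 0 := by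
      apply mul_right_cancel₀ hD
      linear_combination (v₀ 0) * e10 - (v 0) * e00
    have h10 : a.1 1 0 = 0 := by
      apply mul_right_cancel₀ hD
      linear_combination (v 1) * e01 - (v₀ 1) * e11
    have h11 : a.1 1 1 = 1 := by
      apply mul_right_cancel₀ hD
      linear_combination (v₀ 0) * e11 - (v 0) * e01
    ext i j
    fin_cases i <;> fin_cases j <;> simp [h00, h01, h10, h11]

end sl2

section main

variable [hp : Fact p.Prime] [Finite P] [Finite W] {r : ℕ} {S : Sylow p P} {E : Fin r → Subgroup P}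

/-- The vectors fixed by `S` in the commutator module. -/
def DD (S : Subgroup P) (E : Fin r → Subgroup P) (W : Type*) [AddCommGroup W] [DistribMulAction P W] : AddSubgroup W :=
  fixS W S ⊓ ⨆ i, comS W (E i)

theorem mem_DD {T : Subgroup P} {w : W} : w ∈ DD T E W ↔ w ∈ fixS W T ∧ w ∈ ⨆ i, comS W (E i) := Iff.rfl

theorem sup_normal (hB : Blocks p (S : Subgroup P) W E) (hperm : ∀ t ∈ (S : Subgroup P), ∀ i, ∃ j, cj t (E i) = E j) :
    (⨆ i, E i).Normal := by
  rw [← Subgroup.normalizer_eq_top_iff, eq_top_iff, ← hB.top]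
  refine sup_le (Subgroup.le_normalizer) ?_
  intro t ht
  rw [mem_normalizer_iff_cj]
  apply Subgroup.eq_of_le_of_card_ge
  · unfold cj
    rw [Subgroup.map_iSup]
    refine iSup_le fun i => ?_
    obtain ⟨j, hj⟩ := hperm t ht i
    have h1 : (E i).map (MulAut.conj t).toMonoidHom = E j := hj
    rw [h1]
    exact le_iSup E j
  · rw [card_cj]

theorem exists_mul_of_top (hB : Blocks p (S : Subgroup P) W E)
    (hperm : ∀ t ∈ (S : Subgroup P), ∀ i, ∃ j, cj t (E i) = E j) (x : P) :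
    ∃ s ∈ (S : Subgroup P), ∃ e ∈ ⨆ i, E i, x = s * e := by
  haveI := sup_normal hB hperm
  have h1 : x ∈ ((S : Subgroup P) ⊔ ⨆ i, E i : Subgroup P) := by
    rw [sup_comm, hB.top]
    trivial
  have h2 : x ∈ (((S : Subgroup P) ⊔ ⨆ i, E i : Subgroup P) : Set P) := h1
  rw [Subgroup.mul_normal] at h2
  obtain ⟨s, hs, e, he, rfl⟩ := h2
  exact ⟨s, hs, e, he, rfl⟩

theorem sup_le_normalizer_block (hB : Blocks p (S : Subgroup P) W E) (i : Fin r) :
    (⨆ j, E j) ≤ Subgroup.normalizer (E i : Set P) := by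
  refine iSup_le fun j => ?_
  by_cases hij : j = i
  · subst hij
    exact Subgroup.le_normalizer
  · intro g hg
    refine Subgroup.mem_normalizer_iff.2 fun x => ?_
    constructor
    · intro hx
      rw [hB.comm j i hij g hg x hx]
      simpa using hx
    · intro hx
      have h1 : g * x * g⁻¹ * g = g * x := by group
      have h2 := hB.comm j i hij g hg (g * x * g⁻¹) hx
      have h3 : g * (g * x * g⁻¹) = g * x * g⁻¹ * g → x = g * x * g⁻¹ := by
        intro h4
        rw [h1] at h4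
        have := mul_left_cancel h4
        exact this.symm
      rw [h3 h2]
      exact hx

/-- Data of one block. -/
structure BData (p : ℕ) (E₀ : Subgroup P) (W : Type*) [AddCommGroup W] [DistribMulAction P W] (F : Type) [Field F] where
  ρ : ↥E₀ ≃* Matrix.SpecialLinearGroup (Fin 2) F
  Θ : W →+ (Fin 2 → F)
  surj : Function.Surjective Θ
  ker : ∀ w, Θ w = 0 ↔ w ∈ fixS W E₀
  equi : ∀ (g : ↥E₀) (w : W), Θ ((g : P) • w) = (ρ g).1.mulVec (Θ w)

variable {i₀ : Fin r} {F : Type} [Field F] [Finite F] (D : BData p (E i₀) W F)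
include D

/-- The Sylow subgroup fixes vectors, and these have nonzero coordinate. -/
theorem theta_ne (hodd : p ≠ 2) (hW : ∀ w : W, p • w = 0) (hB : Blocks p (S : Subgroup P) W E)
    {d : W} (hd : d ∈ DD (S : Subgroup P) E W) (hd0 : d ≠ 0) : D.Θ d ≠ 0 := by
  intro h
  have h1 := (D.ker d).1 h
  apply hd0
  refine fix_inf_sup hodd hW hB (mem_fixS_iSup.2 fun i => ?_) hd.2
  obtain ⟨t, ht, hti⟩ := hB.trans i₀ i
  have h2 := (Cfsg.Agent.Lib.BHS.OffCount.fix_trans hti).1 h1
  rwa [hd.1 t ht] at h2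

/-- All elements of the block product act on the coordinates by matrices. -/
theorem exists_matrix (hB : Blocks p (S : Subgroup P) W E) {e : P} (he : e ∈ ⨆ i, E i) :
    ∃ a : Matrix.SpecialLinearGroup (Fin 2) F, ∀ w, D.Θ (e • w) = a.1.mulVec (D.Θ w) := by
  induction he using Subgroup.iSup_induction' with
  | hp i x hx =>
    by_cases hi : i = i₀
    · subst hi
      exact ⟨D.ρ ⟨x, hx⟩, fun w => D.equi ⟨x, hx⟩ w⟩
    · refine ⟨1, fun w => ?_⟩
      rw [Matrix.SpecialLinearGroup.coe_one, Matrix.one_mulVec]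
      have h1 : x • w - w ∈ fixS W (E i₀) := hB.quad i₀ i (Ne.symm hi) hx w
      have h2 := (D.ker _).2 h1
      rw [map_sub, sub_eq_zero] at h2
      exact h2
  | h1 => exact ⟨1, fun w => by simp⟩
  | hmul x y _ _ hx hy =>
    obtain ⟨a, ha⟩ := hx
    obtain ⟨b, hb⟩ := hy
    refine ⟨a * b, fun w => ?_⟩
    rw [mul_smul, ha, hb, Matrix.SpecialLinearGroup.coe_mul, Matrix.mulVec_mulVec]

/-- Transitivity of the block product. -/
theorem exists_move (hodd : p ≠ 2) (hW : ∀ w : W, p • w = 0) (hB : Blocks p (S : Subgroup P) W E)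
    {d d' : W} (hd : d ∈ DD (S : Subgroup P) E W) (hd' : d' ∈ DD (S : Subgroup P) E W) (hd0 : d ≠ 0) (hd0' : d' ≠ 0) :
    ∃ g ∈ ⨆ i, E i, g • d = d' := by
  classical
  choose t ht hti using fun i => hB.trans i₀ i
  obtain ⟨δ, hδ⟩ := exists_sl2_move (theta_ne D hodd hW hB hd hd0) (theta_ne D hodd hW hB hd' hd0')
  set g₁ : ↥(E i₀) := D.ρ.symm δ with hg₁
  have hρg : D.ρ g₁ = δ := D.ρ.apply_symm_apply _
  let θ : Fin r → W → (Fin 2 → F) := fun i w => D.Θ ((t i)⁻¹ • w)
  have hθker : ∀ i w, θ i w = 0 ↔ w ∈ fixS W (E i) := by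
    intro i w
    have h1 := D.ker ((t i)⁻¹ • w)
    rw [← hti i, mem_fixS_cj]
    exact h1
  have hθsub : ∀ i (w w' : W), θ i (w - w') = θ i w - θ i w' := by
    intro i w w'
    show D.Θ ((t i)⁻¹ • (w - w')) = _
    rw [smul_sub, map_sub]
  have hθfix : ∀ i j, i ≠ j → ∀ x ∈ E j, ∀ w, θ i (x • w) = θ i w := by
    intro i j hij x hx w
    have h1 : x • w - w ∈ fixS W (E i) := hB.quad i j hij hx w
    have h2 := (hθker i _).2 h1
    rw [hθsub, sub_eq_zero] at h2
    exact h2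
  have hθd : ∀ i, ∀ w ∈ fixS W (S : Subgroup P), θ i w = D.Θ w := by
    intro i w hw
    show D.Θ ((t i)⁻¹ • w) = _
    rw [hw _ (Subgroup.inv_mem _ (ht i))]
  have hmem : ∀ j, t j * g₁ * (t j)⁻¹ ∈ E j := by
    intro j
    rw [← hti j]
    exact conj_mem_cj g₁.2
  have hθact : ∀ j w, θ j ((t j * g₁ * (t j)⁻¹) • w) = δ.1.mulVec (θ j w) := by
    intro j w
    show D.Θ ((t j)⁻¹ • (t j * g₁ * (t j)⁻¹) • w) = _
    have h1 : (t j)⁻¹ • (t j * (g₁ : P) * (t j)⁻¹) • w = (g₁ : P) • (t j)⁻¹ • w := by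
      simp only [← mul_smul]
      congr 1
      group
    rw [h1, D.equi, hρg]
  have key : ∀ Q : Finset (Fin r), ∃ g ∈ ⨆ i, E i, (∀ i ∈ Q, θ i (g • d) = D.Θ d') ∧ (∀ i, i ∉ Q → θ i (g • d) = D.Θ d) := by
    intro Q
    induction Q using Finset.induction_on with
    | empty =>
      refine ⟨1, Subgroup.one_mem _, by simp, fun i _ => ?_⟩
      rw [one_smul]
      exact hθd i d hd.1
    | insert j Q hj ih =>
      obtain ⟨g, hg, h1, h2⟩ := ih
      refine ⟨(t j * g₁ * (t j)⁻¹) * g, Subgroup.mul_mem _ (Subgroup.mem_iSup_of_mem j (hmem j)) hg, ?_, ?_⟩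
      · intro i hi
        rw [mul_smul]
        by_cases hij : i = j
        · subst hij
          rw [hθact, h2 i hj, hδ]
        · rw [hθfix i j hij _ (hmem j)]
          exact h1 i ((Finset.mem_insert.1 hi).resolve_left hij)
      · intro i hi
        have hij : i ≠ j := fun he => hi (by simp [he])
        rw [mul_smul, hθfix i j hij _ (hmem j)]
        exact h2 i (fun h => hi (Finset.mem_insert_of_mem h))
  obtain ⟨g, hg, h1, -⟩ := key Finset.univ
  refine ⟨g, hg, ?_⟩
  have hf : g • d - d' ∈ fixS W (⨆ i, E i) := by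
    refine mem_fixS_iSup.2 fun i => ?_
    rw [← hθker, hθsub, h1 i (Finset.mem_univ i), hθd i d' hd'.1, sub_self]
  have hc : g • d - d' ∈ ⨆ i, comS W (E i) := by
    have h2 : g • d - d ∈ ⨆ i, comS W (E i) := iSup_le_modFix hg d
    have h3 : g • d - d' = (g • d - d) + d - d' := by abel
    rw [h3]
    exact AddSubgroup.sub_mem _ (AddSubgroup.add_mem _ h2 hd.2) hd'.2
  exact sub_eq_zero.1 (fix_inf_sup hodd hW hB hf hc)

omit D in
/-- Burnside's argument: the move is realized in the normalizer. -/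
theorem exists_move_norm (hB : Blocks p (S : Subgroup P) W E)
    (hperm : ∀ t ∈ (S : Subgroup P), ∀ i, ∃ j, cj t (E i) = E j)
    {d d' : W} (hd : d ∈ fixS W (S : Subgroup P)) (hd' : d' ∈ fixS W (S : Subgroup P)) {g : P} (hg : g ∈ ⨆ i, E i)
    (hgd : g • d = d') :
    ∃ e ∈ ⨆ i, E i, e ∈ Subgroup.normalizer ((S : Subgroup P) : Set P) ∧ e • d = d' := by
  classical
  haveI := sup_normal hB hperm
  let St : Subgroup P := MulAction.stabilizer P d'
  have h1 : (S : Subgroup P) ≤ St := fun s hs => MulAction.mem_stabilizer_iff.2 (hd' s hs)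
  let S' : Sylow p P := g • S
  have h2 : (S' : Subgroup P) ≤ St := by
    intro x hx
    rw [Sylow.coe_subgroup_smul] at hx
    obtain ⟨s, hs, rfl⟩ := hx
    refine MulAction.mem_stabilizer_iff.2 ?_
    show (g * s * g⁻¹) • d' = d'
    rw [← hgd, mul_smul, mul_smul, inv_smul_smul, hd s hs]
  obtain ⟨h, hh⟩ := MulAction.exists_smul_eq St (S'.subtype h2) (S.subtype h1)
  have hh2 : ∀ x ∈ (S' : Subgroup P), (h : P) * x * (h : P)⁻¹ ∈ (S : Subgroup P) := by
    intro x hx
    have h3 : (⟨x, h2 hx⟩ : St) ∈ ((S'.subtype h2 : Sylow p St) : Subgroup St) := by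
      rw [Sylow.coe_subtype]
      exact Subgroup.mem_subgroupOf.2 hx
    have h4 : h * ⟨x, h2 hx⟩ * h⁻¹ ∈ ((h • (S'.subtype h2) : Sylow p St) : Subgroup St) := by
      rw [Sylow.coe_subgroup_smul]
      exact ⟨_, h3, rfl⟩
    rw [hh, Sylow.coe_subtype] at h4
    exact Subgroup.mem_subgroupOf.1 h4
  have hn : (h : P) * g ∈ Subgroup.normalizer ((S : Subgroup P) : Set P) := by
    have hle : ((S : Subgroup P)).map (MulAut.conj ((h : P) * g)).toMonoidHom ≤ (S : Subgroup P) := by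
      rintro _ ⟨s, hs, rfl⟩
      have h5 : g * s * g⁻¹ ∈ (S' : Subgroup P) := by
        rw [Sylow.coe_subgroup_smul]
        exact ⟨s, hs, rfl⟩
      have h6 := hh2 _ h5
      have h7 : (MulAut.conj ((h : P) * g)).toMonoidHom s = (h : P) * (g * s * g⁻¹) * (h : P)⁻¹ := by
        show ((h : P) * g) * s * ((h : P) * g)⁻¹ = _
        group
      rw [h7]
      exact h6
    rw [mem_normalizer_iff_cj]
    exact Subgroup.eq_of_le_of_card_ge hle (by rw [show Nat.card ↥(((S : Subgroup P)).map (MulAut.conj ((h : P) * g)).toMonoidHom) = Nat.card (S : Subgroup P) from card_cj _ _])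
  obtain ⟨s, hs, e, he, hse⟩ := exists_mul_of_top hB hperm ((h : P) * g)
  have hen : e = s⁻¹ * ((h : P) * g) := by
    rw [hse]
    group
  refine ⟨e, he, ?_, ?_⟩
  · rw [hen]
    exact Subgroup.mul_mem _ (Subgroup.le_normalizer (Subgroup.inv_mem _ hs)) hn
  · have h8 : ((h : P) * g) • d = d' := by
      rw [mul_smul, hgd]
      exact MulAction.mem_stabilizer_iff.1 h.2
    rw [hse, mul_smul] at h8
    have h9 := congrArg (fun x => s⁻¹ • x) h8
    simp only [inv_smul_smul] at h9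
    rw [h9, hd' _ (Subgroup.inv_mem _ hs)]

/-- A nontrivial element of the block in `S`. -/
theorem exists_inf_ne (hB : Blocks p (S : Subgroup P) W E)
    (hperm : ∀ t ∈ (S : Subgroup P), ∀ i, ∃ j, cj t (E i) = E j) (hchar : (p : F) = 0) :
    ∃ u, ∃ hu : u ∈ E i₀, u ∈ (S : Subgroup P) ∧ D.ρ ⟨u, hu⟩ ≠ 1 := by
  let x : ↥(E i₀) := D.ρ.symm (eU (1 : F))
  have hρx : D.ρ x = eU (1 : F) := D.ρ.apply_symm_apply _
  have hxne : D.ρ x ≠ 1 := by
    rw [hρx]
    intro h
    have h1 := congrArg (fun m : Matrix.SpecialLinearGroup (Fin 2) F => m.1 0 1) h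
    simp at h1
  have hx1 : x ≠ 1 := by
    intro h
    rw [h, map_one] at hxne
    exact hxne rfl
  have hxp : x ^ p = 1 := by
    apply D.ρ.injective
    rw [map_pow, hρx, eU_pow, hchar, zero_mul, eU_zero, map_one]
  have hxp' : (x : P) ^ p = 1 := by
    have := congrArg Subtype.val hxp
    simpa using this
  have hxne' : (x : P) ≠ 1 := fun h => hx1 (Subtype.ext h)
  have hpg : IsPGroup p (Subgroup.zpowers (x : P)) := by
    rw [IsPGroup.iff_card, Nat.card_zpowers, orderOf_eq_prime hxp' hxne']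
    exact ⟨1, (pow_one p).symm⟩
  obtain ⟨k, hk⟩ := Cfsg.Agent.Lib.QuadAct.ZJ.exists_conj_le_sylow S hpg
  obtain ⟨s, hs, e, he, rfl⟩ := exists_mul_of_top hB hperm k
  have h1 : (s * e) * (x : P) * (s * e)⁻¹ ∈ (S : Subgroup P) := hk ⟨_, Subgroup.mem_zpowers _, rfl⟩
  have h2 : e * (x : P) * e⁻¹ ∈ (S : Subgroup P) := by
    have h3 := (S : Subgroup P).mul_mem ((S : Subgroup P).mul_mem ((S : Subgroup P).inv_mem hs) h1) hs
    have h4 : s⁻¹ * ((s * e) * (x : P) * (s * e)⁻¹) * s = e * (x : P) * e⁻¹ := by group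
    rwa [h4] at h3
  have h5 : e * (x : P) * e⁻¹ ∈ E i₀ :=
    (Subgroup.mem_normalizer_iff.1 (sup_le_normalizer_block hB i₀ he) _).1 x.2
  refine ⟨_, h5, h2, ?_⟩
  intro h6
  have h7 : (⟨_, h5⟩ : ↥(E i₀)) = 1 := D.ρ.injective (by rw [h6, map_one])
  have h8 : e * (x : P) * e⁻¹ = 1 := congrArg Subtype.val h7
  apply hxne'
  have h9 : (x : P) = e⁻¹ * (e * (x : P) * e⁻¹) * e := by group
  rw [h9, h8]
  group

omit D in
theorem smul_mem_DD {e : P} (he : e ∈ ⨆ i, E i) (hn : e ∈ Subgroup.normalizer ((S : Subgroup P) : Set P))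
    {d : W} (hd : d ∈ DD (S : Subgroup P) E W) : e • d ∈ DD (S : Subgroup P) E W := by
  refine ⟨?_, ?_⟩
  · intro s hs
    have h1 : e⁻¹ * s * e ∈ (S : Subgroup P) := by
      have := (Subgroup.mem_normalizer_iff.1 hn (e⁻¹ * s * e)).2
      apply this
      have e1 : e * (e⁻¹ * s * e) * e⁻¹ = s := by group
      rw [e1]
      exact hs
    have h2 := hd.1 _ h1
    have h3 : s • e • d = e • (e⁻¹ * s * e) • d := by
      simp only [← mul_smul]
      congr 1
      group
    rw [h3, h2]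
  · have h2 : e • d - d ∈ ⨆ i, comS W (E i) := iSup_le_modFix he d
    have h3 : e • d = (e • d - d) + d := by abel
    rw [h3]
    exact AddSubgroup.add_mem _ h2 hd.2

/-- The action is by a scalar. -/
theorem exists_scalar (hodd : p ≠ 2) (hW : ∀ w : W, p • w = 0) (hB : Blocks p (S : Subgroup P) W E)
    (hperm : ∀ t ∈ (S : Subgroup P), ∀ i, ∃ j, cj t (E i) = E j) (hchar : (p : F) = 0)
    {e : P} (he : e ∈ ⨆ i, E i) (hn : e ∈ Subgroup.normalizer ((S : Subgroup P) : Set P)) :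
    ∃ l : Fˣ, ∀ d ∈ DD (S : Subgroup P) E W, D.Θ (e • d) = (l : F) • D.Θ d := by
  by_cases h : ∃ d₀ ∈ DD (S : Subgroup P) E W, d₀ ≠ 0
  · obtain ⟨d₀, hd₀, hd₀0⟩ := h
    obtain ⟨u, hu, huS, hune⟩ := exists_inf_ne D hB hperm hchar
    have hv₀ := theta_ne D hodd hW hB hd₀ hd₀0
    have hfix : ∀ d ∈ DD (S : Subgroup P) E W, (D.ρ ⟨u, hu⟩).1.mulVec (D.Θ d) = D.Θ d := by
      intro d hd
      rw [← D.equi ⟨u, hu⟩ d, hd.1 u huS]
    have hline : ∀ d ∈ DD (S : Subgroup P) E W, ∃ c : F, D.Θ d = c • D.Θ d₀ := fun d hd =>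
      line_of_fixed hune hv₀ (hfix d₀ hd₀) (hfix d hd)
    obtain ⟨a, ha⟩ := exists_matrix D hB he
    have hd₁ := smul_mem_DD he hn hd₀
    have hd₁0 : e • d₀ ≠ 0 := by
      intro h0
      apply hd₀0
      have := congrArg (fun x => e⁻¹ • x) h0
      simpa using this
    obtain ⟨c₀, hc₀⟩ := hline _ hd₁
    have hc₀0 : c₀ ≠ 0 := by
      rintro rfl
      rw [zero_smul] at hc₀
      exact theta_ne D hodd hW hB hd₁ hd₁0 hc₀
    refine ⟨Units.mk0 c₀ hc₀0, fun d hd => ?_⟩
    obtain ⟨c, hc⟩ := hline d hd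
    rw [ha, hc, Matrix.mulVec_smul, ← ha, hc₀, Units.val_mk0, smul_smul, smul_smul, mul_comm]
  · push_neg at h
    refine ⟨1, fun d hd => ?_⟩
    rw [h d hd, smul_zero, map_zero, smul_zero]

/-- The single generator. -/
theorem exists_gen_of_data (hodd : p ≠ 2) (hW : ∀ w : W, p • w = 0) (hB : Blocks p (S : Subgroup P) W E)
    (hperm : ∀ t ∈ (S : Subgroup P), ∀ i, ∃ j, cj t (E i) = E j) (hchar : (p : F) = 0) :
    ∃ e₀ ∈ ⨆ i, E i, e₀ ∈ Subgroup.normalizer ((S : Subgroup P) : Set P) ∧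
      ∀ d d', d ∈ DD (S : Subgroup P) E W → d' ∈ DD (S : Subgroup P) E W → d ≠ 0 → d' ≠ 0 → ∃ k : ℕ, e₀ ^ k • d = d' := by
  classical
  let L : Subgroup Fˣ :=
    { carrier := {l | ∃ e, e ∈ ⨆ i, E i ∧ e ∈ Subgroup.normalizer ((S : Subgroup P) : Set P) ∧
        ∀ d ∈ DD (S : Subgroup P) E W, D.Θ (e • d) = (l : F) • D.Θ d}
      one_mem' := ⟨1, Subgroup.one_mem _, Subgroup.one_mem _, fun d _ => by simp⟩
      mul_mem' := by
        rintro l₁ l₂ ⟨e₁, h₁, n₁, h₁'⟩ ⟨e₂, h₂, n₂, h₂'⟩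
        refine ⟨e₁ * e₂, Subgroup.mul_mem _ h₁ h₂, Subgroup.mul_mem _ n₁ n₂, fun d hd => ?_⟩
        rw [mul_smul, h₁' _ (smul_mem_DD h₂ n₂ hd), h₂' d hd, smul_smul]
        rfl
      inv_mem' := by
        rintro l ⟨e, h, n, h'⟩
        refine ⟨e⁻¹, Subgroup.inv_mem _ h, Subgroup.inv_mem _ n, fun d hd => ?_⟩
        have h1 := h' _ (smul_mem_DD (Subgroup.inv_mem _ h) (Subgroup.inv_mem _ n) hd)
        rw [smul_inv_smul] at h1
        rw [h1, smul_smul]
        simp }
  haveI : Finite Fˣ := inferInstance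
  obtain ⟨g₀, hg₀⟩ := IsCyclic.exists_generator (α := L)
  obtain ⟨e₀, he₀, hn₀, h₀⟩ := g₀.2
  refine ⟨e₀, he₀, hn₀, fun d d' hd hd' hd0 hd'0 => ?_⟩
  obtain ⟨g, hg, hgd⟩ := exists_move D hodd hW hB hd hd' hd0 hd'0
  obtain ⟨e, he, hn, hed⟩ := exists_move_norm hB hperm hd.1 hd'.1 hg hgd
  obtain ⟨l, hl⟩ := exists_scalar D hodd hW hB hperm hchar he hn
  have hlL : l ∈ L := ⟨e, he, hn, hl⟩
  obtain ⟨k, hk⟩ := (mem_powers_iff_mem_zpowers).2 (hg₀ ⟨l, hlL⟩)
  have hk' : ((g₀ : Fˣ) : F) ^ k = (l : F) := by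
    have h1 := congrArg (fun x : ↥L => (((x : Fˣ) : F))) hk
    simpa using h1
  have hpow : ∀ n : ℕ, e₀ ^ n • d ∈ DD (S : Subgroup P) E W ∧
      D.Θ (e₀ ^ n • d) = ((g₀ : Fˣ) : F) ^ n • D.Θ d := by
    intro n
    induction n with
    | zero => exact ⟨by simpa using hd, by simp⟩
    | succ n ih =>
      refine ⟨?_, ?_⟩
      · rw [pow_succ', mul_smul]
        exact smul_mem_DD he₀ hn₀ ih.1
      · rw [pow_succ', mul_smul, h₀ _ ih.1, ih.2, smul_smul, pow_succ']
  refine ⟨k, ?_⟩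
  by_contra hne
  have h1 := (hpow k).2
  rw [hk', ← hl d hd, hed] at h1
  have h2 : e₀ ^ k • d - d' ∈ DD (S : Subgroup P) E W := AddSubgroup.sub_mem _ (hpow k).1 hd'
  exact theta_ne D hodd hW hB h2 (sub_ne_zero.2 hne) (by rw [map_sub, h1, sub_self])

omit D in
/-- The single generator, from the block structure. -/
theorem exists_gen {r : ℕ} {E : Fin r → Subgroup P} (hodd : p ≠ 2) (hW : ∀ w : W, p • w = 0)
    (hB : Blocks p (S : Subgroup P) W E)
    (hperm : ∀ t ∈ (S : Subgroup P), ∀ i, ∃ j, cj t (E i) = E j) :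
    ∃ e₀ ∈ ⨆ i, E i, e₀ ∈ Subgroup.normalizer ((S : Subgroup P) : Set P) ∧
      ∀ d d', d ∈ DD (S : Subgroup P) E W → d' ∈ DD (S : Subgroup P) E W → d ≠ 0 → d' ≠ 0 → ∃ k : ℕ, e₀ ^ k • d = d' := by
  obtain ⟨i₁⟩ := hB.ne
  obtain ⟨n, hn, F₁, fF, fFt, hcF, ρ, Θ, hsurj, hker, hequi⟩ := kind_sl2 hodd hB i₁
  have hchar : (p : F₁) = 0 := by
    have h1 : ((Fintype.card F₁ : ℕ) : F₁) = 0 := Nat.cast_card_eq_zero F₁
    rw [hcF, Nat.cast_pow] at h1
    exact pow_eq_zero_iff (by omega) |>.1 h1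
  exact exists_gen_of_data (⟨ρ, Θ, hsurj, hker, hequi⟩ : BData p (E i₁) W F₁) hodd hW hB hperm hchar

end main

end Cfsg.Agent.Lib.Qrc.Mod
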